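/-
Element orders of `G₂(q)`, `q` even: the stabiliser of an idempotent acts through `SL₃`.
-/
import Cfsg.Agent.H62.Covering.G2

set_option autoImplicit false

open Matrix Cfsg.Lie Polynomial
open Cfsg.Agent.H62.Covering.G2

namespace Cfsg.Agent.H62.G2Orders

variable {K : Type*} [Field K]

local notation "O" => (Fin 8 → K)

/-- The idempotent `E`. -/
def idE : O := ![1, 0, 0, 0, 0, 0, 0, 0]

/-- The idempotent `1 - E`. -/
def idE' : O := ![0, 0, 0, 0, 0, 0, 0, 1]

/-- The projection to the first vector part. -/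
def proj1 : Matrix (Fin 8) (Fin 8) K := Matrix.diagonal ![0, 1, 1, 1, 0, 0, 0, 0]

/-- The projection to the second vector part. -/
def proj2 : Matrix (Fin 8) (Fin 8) K := Matrix.diagonal ![0, 0, 0, 0, 1, 1, 1, 0]

theorem idE_add_one [CharP K 2] : (idE : O) + Covering.G2.one = idE' := by
  funext i; fin_cases i <;> simp [idE, idE', Covering.G2.one, CharTwo.add_self_eq_zero]

theorem idE'_add_one [CharP K 2] : (idE' : O) + Covering.G2.one = idE := by
  funext i; fin_cases i <;> simp [idE, idE', Covering.G2.one, CharTwo.add_self_eq_zero]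

theorem proj1_mulVec (x : O) : proj1 *ᵥ x = zornMul idE x - zornMul (zornMul idE x) idE := by
  funext i
  rw [proj1, mulVec_diagonal]
  fin_cases i <;> simp [zornMul, idE, dot3, cross3]

theorem proj2_mulVec (x : O) : proj2 *ᵥ x = zornMul idE' x - zornMul (zornMul idE' x) idE' := by
  funext i
  rw [proj2, mulVec_diagonal]
  fin_cases i <;> simp [zornMul, idE', dot3, cross3]

/-- Fixing `E` means commuting with both projections. -/
theorem commute_proj {k : ↥(Lie.G2 K)} (h : mat k *ᵥ idE = idE) :
    mat k * proj1 = proj1 * mat k ∧ mat k * proj2 = proj2 * mat k := by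
  have h' : mat k *ᵥ idE' = idE' := by
    have e : (idE' : O) = Covering.G2.one - idE := by funext i; fin_cases i <;> simp [idE, idE', Covering.G2.one]
    rw [e, mulVec_sub, map_one', h]
  constructor <;> refine ext_of_mulVec_single fun i => ?_ <;>
    simp only [← mulVec_mulVec, proj1_mulVec, proj2_mulVec, mulVec_sub, map_mul', h, h']

/-- Moving `E` to `1 - E` exchanges the projections. -/
theorem swap_proj {k : ↥(Lie.G2 K)} (h : mat k *ᵥ idE = idE') :
    mat k * proj1 = proj2 * mat k ∧ mat k * proj2 = proj1 * mat k := by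
  have h' : mat k *ᵥ idE' = idE := by
    have e : (idE' : O) = Covering.G2.one - idE := by funext i; fin_cases i <;> simp [idE, idE', Covering.G2.one]
    rw [e, mulVec_sub, map_one', h]
    funext i; fin_cases i <;> simp [idE, idE', Covering.G2.one]
  constructor <;> refine ext_of_mulVec_single fun i => ?_ <;>
    simp only [← mulVec_mulVec, proj1_mulVec, proj2_mulVec, mulVec_sub, map_mul', h, h']

/-- The action on the first vector part. -/
def blockA (k : ↥(Lie.G2 K)) : Matrix (Fin 3) (Fin 3) K :=
  Matrix.of fun i j => mat k (![1, 2, 3] i) (![1, 2, 3] j)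

/-- The action on the second vector part. -/
def blockB (k : ↥(Lie.G2 K)) : Matrix (Fin 3) (Fin 3) K :=
  Matrix.of fun i j => mat k (![4, 5, 6] i) (![4, 5, 6] j)

/-- The zero pattern of a stabiliser element. -/
theorem entries {k : ↥(Lie.G2 K)} (h : mat k *ᵥ idE = idE) (i j : Fin 8) :
    (![0, 1, 1, 1, 2, 2, 2, 3] : Fin 8 → ℕ) i ≠ (![0, 1, 1, 1, 2, 2, 2, 3] : Fin 8 → ℕ) j →
      mat k i j = 0 := by
  intro hij
  obtain ⟨c1, c2⟩ := commute_proj h
  have e1 := congrFun (congrFun c1 i) j
  have e2 := congrFun (congrFun c2 i) j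
  rw [proj1, mul_diagonal, diagonal_mul] at e1
  rw [proj2, mul_diagonal, diagonal_mul] at e2
  have h00 : mat k 0 0 = 1 := by simpa [idE, mulVec, dotProduct, Fin.sum_univ_eight] using congrFun h 0
  have h70 : mat k 7 0 = 0 := by simpa [idE, mulVec, dotProduct, Fin.sum_univ_eight] using congrFun h 7
  have h07 : mat k 0 7 = 0 := by
    simpa [Covering.G2.one, mulVec, dotProduct, Fin.sum_univ_eight, h00] using congrFun (map_one' k) 0
  fin_cases i <;> fin_cases j <;>
    first
      | exact absurd rfl hij
      | exact h70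
      | exact h07
      | (simpa using e1) | (simpa using e1.symm) | (simpa using e2) | (simpa using e2.symm)

theorem diag_entries {k : ↥(Lie.G2 K)} (h : mat k *ᵥ idE = idE) : mat k 0 0 = 1 ∧ mat k 7 7 = 1 := by
  have e3 := congrFun h 0
  have e4 := congrFun (map_one' k) 7
  have z := entries h 7 0 (by decide)
  constructor
  · simpa [idE, mulVec, dotProduct, Fin.sum_univ_eight] using e3
  · simpa [Covering.G2.one, mulVec, dotProduct, Fin.sum_univ_eight, z] using e4

theorem blockA_mul {k k' : ↥(Lie.G2 K)} (h : mat k *ᵥ idE = idE) (_h' : mat k' *ᵥ idE = idE) :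
    blockA (k * k') = blockA k * blockA k' := by
  ext i j
  have hz : ∀ i : Fin 3, mat k (![1, 2, 3] i) 0 = 0 ∧ mat k (![1, 2, 3] i) 4 = 0 ∧
      mat k (![1, 2, 3] i) 5 = 0 ∧ mat k (![1, 2, 3] i) 6 = 0 ∧ mat k (![1, 2, 3] i) 7 = 0 := by
    intro i
    fin_cases i <;> exact ⟨entries h _ _ (by decide), entries h _ _ (by decide), entries h _ _ (by decide),
      entries h _ _ (by decide), entries h _ _ (by decide)⟩
  obtain ⟨a, b, c, d, e⟩ := hz i
  simp only [blockA, of_apply, mat_mul, mul_apply, Fin.sum_univ_eight, Fin.sum_univ_three]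
  rw [a, b, c, d, e]
  simp

theorem blockA_one : blockA (1 : ↥(Lie.G2 K)) = 1 := by
  ext i j
  fin_cases i <;> fin_cases j <;> simp [blockA, Matrix.one_apply, show mat (1 : ↥(Lie.G2 K)) = 1 from rfl]

theorem fix_pow {k : ↥(Lie.G2 K)} (h : mat k *ᵥ idE = idE) : ∀ n : ℕ, mat (k ^ n) *ᵥ idE = idE
  | 0 => by rw [pow_zero]; exact one_mulVec idE
  | n + 1 => by rw [pow_succ, mat_mul, ← mulVec_mulVec, h, fix_pow h n]

theorem blockA_pow {k : ↥(Lie.G2 K)} (h : mat k *ᵥ idE = idE) : ∀ n : ℕ, blockA (k ^ n) = blockA k ^ n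
  | 0 => by rw [pow_zero, pow_zero, blockA_one]
  | n + 1 => by rw [pow_succ, pow_succ, blockA_mul (fix_pow h n) h, blockA_pow h n]

theorem col_eq (k : ↥(Lie.G2 K)) (i j : Fin 8) :
    (mat k *ᵥ Pi.single j 1) i = mat k i j := by rw [mulVec_single_one]; rfl

/-- The second block is contragredient to the first. -/
theorem transpose_mul_blockB {k : ↥(Lie.G2 K)} (h : mat k *ᵥ idE = idE) :
    (blockA k)ᵀ * blockB k = 1 := by
  ext i j
  have hprod : zornMul (Pi.single (![1, 2, 3] i) (1 : K)) (Pi.single (![4, 5, 6] j) 1) =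
      (if i = j then (1 : K) else 0) • idE := by
    funext l
    fin_cases i <;> fin_cases j <;> fin_cases l <;> simp [zornMul, dot3, cross3, idE]
  have e := congrFun (map_mul' k (Pi.single (![1, 2, 3] i) 1) (Pi.single (![4, 5, 6] j) 1)) 0
  rw [hprod, mulVec_smul, h] at e
  have h0 : mat k 0 (![1, 2, 3] i) = 0 := by fin_cases i <;> exact entries h _ _ (by decide)
  simp only [zornMul, dot3, col_eq, h0, Matrix.cons_val_zero, Pi.smul_apply, idE, smul_eq_mul] at e
  rw [mul_apply, Fin.sum_univ_three, Matrix.one_apply]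
  simp [blockA, blockB] at e ⊢
  rw [e]

/-- The first block has determinant one. -/
theorem det_blockA {k : ↥(Lie.G2 K)} (h : mat k *ᵥ idE = idE) : (blockA k).det = 1 := by
  have z := entries h
  have e := map_mul' k (Pi.single 1 1) (Pi.single 2 1)
  have hx : zornMul (Pi.single (1 : Fin 8) (1 : K)) (Pi.single 2 1) = Pi.single 6 1 := by
    funext i; fin_cases i <;> simp [zornMul, dot3, cross3]
  rw [hx] at e
  have e4 := congrFun e 4
  have e5 := congrFun e 5
  have e6 := congrFun e 6
  simp [zornMul, dot3, cross3, col_eq, z 0 1 (by decide), z 7 1 (by decide), z 0 2 (by decide),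
    z 7 2 (by decide)] at e4 e5 e6
  have t := congrFun (congrFun (transpose_mul_blockB h) 2) 2
  simp [blockA, blockB, mul_apply, Fin.sum_univ_three] at t
  rw [det_fin_three]
  simp [blockA]
  rw [e4, e5, e6] at t
  linear_combination t

theorem trace_proj1 (k : ↥(Lie.G2 K)) : (proj1 * mat k).trace = (blockA k).trace := by
  simp [proj1, trace, Fin.sum_univ_eight, Fin.sum_univ_three, blockA, diagonal_mul]

theorem trace_proj2 {k : ↥(Lie.G2 K)} (h : mat k *ᵥ idE = idE) :
    (proj2 * mat k).trace = (blockA k).adjugate.trace := by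
  have e : blockB k = ((blockA k).adjugate)ᵀ := by
    have h1 : (blockA k)ᵀ * ((blockA k).adjugate)ᵀ = 1 := by
      rw [← transpose_mul, adjugate_mul, det_blockA h, one_smul, transpose_one]
    have h2 : blockB k * (blockA k)ᵀ = 1 := mul_eq_one_comm.1 (transpose_mul_blockB h)
    calc blockB k = blockB k * ((blockA k)ᵀ * ((blockA k).adjugate)ᵀ) := by rw [h1, mul_one]
      _ = ((blockA k).adjugate)ᵀ := by rw [← mul_assoc, h2, one_mul]
  rw [← trace_transpose (blockA k).adjugate, ← e]
  simp [proj2, trace, Fin.sum_univ_eight, Fin.sum_univ_three, blockB, diagonal_mul]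

/-- A stabiliser element is determined by its first block. -/
theorem eq_one_of_blockA {k : ↥(Lie.G2 K)} (h : mat k *ᵥ idE = idE) (hA : blockA k = 1) : k = 1 := by
  have hB := transpose_mul_blockB h
  rw [hA, transpose_one, one_mul] at hB
  have z := entries h
  have d := diag_entries h
  refine Subtype.ext (Units.ext (Matrix.ext fun i j => ?_))
  show mat k i j = (1 : Matrix (Fin 8) (Fin 8) K) i j
  have a := fun i j => congrFun (congrFun hA i) j
  have b := fun i j => congrFun (congrFun hB i) j
  fin_cases i <;> fin_cases j <;>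
    first
      | (simpa using d.1)
      | (simpa using d.2)
      | (simpa using z _ _ (by decide))
      | (simpa [blockA] using a 0 0) | (simpa [blockA] using a 0 1) | (simpa [blockA] using a 0 2)
      | (simpa [blockA] using a 1 0) | (simpa [blockA] using a 1 1) | (simpa [blockA] using a 1 2)
      | (simpa [blockA] using a 2 0) | (simpa [blockA] using a 2 1) | (simpa [blockA] using a 2 2)
      | (simpa [blockB] using b 0 0) | (simpa [blockB] using b 0 1) | (simpa [blockB] using b 0 2)
      | (simpa [blockB] using b 1 0) | (simpa [blockB] using b 1 1) | (simpa [blockB] using b 1 2)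
      | (simpa [blockB] using b 2 0) | (simpa [blockB] using b 2 1) | (simpa [blockB] using b 2 2)

/-- Cayley–Hamilton for three by three matrices of determinant one, as a polynomial identity. -/
theorem aeval_cubic_eq_zero (M : Matrix (Fin 3) (Fin 3) K) (hd : M.det = 1) {a b c : K}
    (h1 : a + b + c = M.trace) (h2 : a * b + a * c + b * c = M.adjugate.trace) (h3 : a * b * c = 1) :
    aeval M ((X - C a) * (X - C b) * (X - C c)) = 0 := by
  have e : (X - C a) * (X - C b) * (X - C c) =
      X ^ 3 - C (a + b + c) * X ^ 2 + C (a * b + a * c + b * c) * X - C (a * b * c) := by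
    simp only [map_add, map_mul]; ring
  rw [e, h1, h2, h3, map_one]
  simp only [map_sub, map_add, map_mul, aeval_X, aeval_C, map_pow, map_one, ← Algebra.smul_def]
  have hd' : (1 : Matrix (Fin 3) (Fin 3) K) = M.det • (1 : Matrix (Fin 3) (Fin 3) K) := by
    rw [hd, one_smul]
  conv_lhs => arg 2; rw [hd']
  rw [pow_succ M 2, pow_two, adjugate_fin_three, det_fin_three]
  ext i j
  fin_cases i <;> fin_cases j <;>
    simp [Matrix.mul_apply, Fin.sum_univ_three, Matrix.trace_fin_three] <;> ring

end Cfsg.Agent.H62.G2Orders
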