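/-
The seven numbers are element orders of `G₂(q)`, `q` even.
-/
import Cfsg.Agent.H62.G2Orders.Tables
import Cfsg.Agent.H23.G2Torus.Singer
import Cfsg.Agent.H65.Chev.FieldFixed
import Cfsg.Agent.H71.UnitaryThreeLower
import Cfsg.Agent.H89.PSpFour.Lower
import Cfsg.Agent.H46.TwistGraph

set_option autoImplicit false
set_option maxRecDepth 10000

open Matrix Cfsg.Lie Cfsg.Agent.H46 Cfsg.Agent.H23.G2Torus

namespace Cfsg.Agent.H62.G2Orders

variable {K : Type*} [Field K]

local notation "SL3" => Matrix.SpecialLinearGroup (Fin 3) K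
local notation "x⟪" r "," t "⟫" => Good.xg goodG2 (F := K) r t

/-- The field with two elements inside a field of characteristic two. -/
noncomputable def fromTwo (K : Type*) [Field K] [CharP K 2] : ZMod 2 →+* K := ZMod.castHom (dvd_refl 2) K

theorem x_fromTwo [CharP K 2] (r : ℕ) : (xTwo r).map (fromTwo K) = chevG2.x K r 1 := by
  have h := congrArg Units.val (H65.mapGL_xg goodG2 (fromTwo K) r (1 : ZMod 2))
  rw [H65.coe_mapGL, map_one] at h
  exact h

theorem orderOf_of_two [CharP K 2] (g : GL chevG2.Idx K) (hg : g ∈ chevG2.group K)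
    (M : Matrix chevG2.Idx chevG2.Idx (ZMod 2)) (h : (g : Matrix chevG2.Idx chevG2.Idx K) = M.map (fromTwo K))
    (n : ℕ) (hn : orderOf M = n) : n ∈ Set.range (orderOf : ↥(chevG2.group K) → ℕ) := by
  refine ⟨⟨g, hg⟩, ?_⟩
  rw [← Subgroup.orderOf_coe, ← orderOf_units, h, ← hn]
  exact orderOf_injective (fromTwo K).mapMatrix.toMonoidHom (Matrix.map_injective (fromTwo K).injective) M

theorem orderOf_m8 : orderOf m8 = 8 := by
  obtain ⟨h1, h2, h3, h4⟩ := m8_facts
  have e2 : m8 ^ 2 = m8b := by rw [pow_two, h1]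
  have e4 : m8 ^ 4 = m8c := by rw [show 4 = 2 + 2 by rfl, pow_add, e2, h2]
  exact orderOf_eq_prime_pow (p := 2) (n := 2) (by rw [show (2 : ℕ) ^ 2 = 4 by rfl, e4]; exact h4)
    (by rw [show (2 : ℕ) ^ (2 + 1) = 4 + 4 by rfl, pow_add, e4, h3])

theorem orderOf_m12 : orderOf m12 = 12 := by
  obtain ⟨h1, h2, h3, h4, h5, h6, h7⟩ := m12_facts
  have e2 : m12 ^ 2 = m12b := by rw [pow_two, h1]
  have e3 : m12 ^ 3 = m12c := by rw [pow_succ, e2, h2]
  have e4 : m12 ^ 4 = m12d := by rw [show 4 = 2 + 2 by rfl, pow_add, e2, h3]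
  have e6 : m12 ^ 6 = m12f := by rw [show 6 = 3 + 3 by rfl, pow_add, e3, h4]
  refine orderOf_eq_of_pow_and_pow_div_prime (by norm_num)
    (by rw [show 12 = 6 + 6 by rfl, pow_add, e6, h5]) fun p hp hd => ?_
  have hp12 : p ≤ 12 := Nat.le_of_dvd (by norm_num) hd
  interval_cases p <;> first
    | (norm_num at hp; done)
    | (norm_num at hd; done)
    | skip
  · rw [show 12 / 2 = 6 by rfl, e6]; exact h7
  · rw [show 12 / 3 = 4 by rfl, e4]; exact h6

theorem mem_range_eight [CharP K 2] : 8 ∈ Set.range (orderOf : ↥(chevG2.group K) → ℕ) :=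
  orderOf_of_two (x⟪0, 1⟫ * x⟪8, 1⟫) (mul_mem (goodG2.xg_mem_group _ _) (goodG2.xg_mem_group _ _)) m8
    (by rw [← m8_def, Matrix.map_mul, x_fromTwo, x_fromTwo]; rfl) 8 orderOf_m8

theorem mem_range_twelve [CharP K 2] : 12 ∈ Set.range (orderOf : ↥(chevG2.group K) → ℕ) :=
  orderOf_of_two (x⟪0, 1⟫ * x⟪2, 1⟫ * x⟪9, 1⟫)
    (mul_mem (mul_mem (goodG2.xg_mem_group _ _) (goodG2.xg_mem_group _ _)) (goodG2.xg_mem_group _ _)) m12
    (by rw [← m12_def, Matrix.map_mul, Matrix.map_mul, x_fromTwo, x_fromTwo, x_fromTwo]; rfl) 12 orderOf_m12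

/-- The Singer torus. -/
theorem mem_range_singer [Fintype K] {q : ℕ} (hq : Fintype.card K = q) (h3 : 3 ≤ q) :
    q ^ 2 + q + 1 ∈ Set.range (orderOf : ↥(chevG2.group K) → ℕ) := by
  obtain ⟨H, hc, hH, -⟩ := exists_selfCentralizing q hq h3
  obtain ⟨g, hg⟩ := IsCyclic.exists_ofOrder_eq_natCard (α := H)
  exact ⟨g, by rw [Subgroup.orderOf_coe, hg, hH]⟩

/-- The block embedding of `GL₂` in `SL₃`. -/
noncomputable def blockHom : GL (Fin 2) K →* SL3 :=
  MonoidHom.mk' (fun g => ⟨!![g 0 0, g 0 1, 0; g 1 0, g 1 1, 0; 0, 0, (g : Matrix (Fin 2) (Fin 2) K).det⁻¹], by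
      have h : (g : Matrix (Fin 2) (Fin 2) K).det ≠ 0 :=
        IsUnit.ne_zero ((Matrix.isUnit_iff_isUnit_det _).1 g.isUnit)
      rw [Matrix.det_fin_three]
      simp [Matrix.det_fin_two] at h ⊢
      field_simp⟩) fun g h => by
    apply Subtype.ext
    show _ = !![g 0 0, g 0 1, 0; g 1 0, g 1 1, 0; 0, 0, (g : Matrix (Fin 2) (Fin 2) K).det⁻¹] *
      !![h 0 0, h 0 1, 0; h 1 0, h 1 1, 0; 0, 0, (h : Matrix (Fin 2) (Fin 2) K).det⁻¹]
    ext i j
    fin_cases i <;> fin_cases j <;>
      simp [Matrix.mul_apply, Fin.sum_univ_three, Fin.sum_univ_two, Matrix.SpecialLinearGroup.coe_mul, mul_comm]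

theorem blockHom_coe (g : GL (Fin 2) K) : (blockHom g : Matrix (Fin 3) (Fin 3) K) =
    !![g 0 0, g 0 1, 0; g 1 0, g 1 1, 0; 0, 0, (g : Matrix (Fin 2) (Fin 2) K).det⁻¹] := rfl

theorem blockHom_injective : Function.Injective (blockHom (K := K)) := by
  intro g h e
  have e' := congrArg Subtype.val e
  refine Units.ext (Matrix.ext fun i j => ?_)
  fin_cases i <;> fin_cases j
  · exact congrFun (congrFun e' 0) 0
  · exact congrFun (congrFun e' 0) 1
  · exact congrFun (congrFun e' 1) 0
  · exact congrFun (congrFun e' 1) 1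

/-- Orders in `SL₃` are orders in `G₂`. -/
theorem mem_range_of_SL3 (g : SL3) : orderOf g ∈ Set.range (orderOf : ↥(chevG2.group K) → ℕ) :=
  ⟨⟨φ g, φ_mem_group g⟩, by rw [← Subgroup.orderOf_coe]; exact orderOf_injective φ φ_injective g⟩

theorem mem_range_sq_sub_one [Fintype K] [CharP K 2] {q : ℕ} (hq : Fintype.card K = q) :
    q ^ 2 - 1 ∈ Set.range (orderOf : ↥(chevG2.group K) → ℕ) := by
  classical
  let L := FiniteField.Extension K 2 2
  have := Fintype.ofFinite L
  have hfr : Module.finrank K L = 2 := FiniteField.finrank_extension K 2 2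
  have : Module.Finite K L := Module.finite_of_finrank_eq_succ hfr
  let b := Module.finBasisOfFinrankEq K L hfr
  obtain ⟨ζ, hζ⟩ := IsCyclic.exists_generator (α := Lˣ)
  have hζo : orderOf ζ = q ^ 2 - 1 := by
    rw [orderOf_eq_card_of_forall_mem_zpowers hζ, Nat.card_units, Nat.card_eq_fintype_card,
      Module.card_eq_pow_finrank (K := K), hfr, hq]
  have := mem_range_of_SL3 (blockHom (Units.map (Algebra.leftMulMatrix b).toMonoidHom ζ))
  rwa [orderOf_injective _ blockHom_injective,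
    orderOf_injective _ (Units.map_injective (Algebra.leftMulMatrix_injective b)), hζo] at this

/-- A torus element of a long root subgroup times an involution of an orthogonal short root. -/
theorem mem_range_double [Fintype K] [CharP K 2] (s : Bool) :
    2 * H89.PSpFour.pmOne (Fintype.card K) s ∈ Set.range (orderOf : ↥(chevG2.group K) → ℕ) := by
  classical
  obtain ⟨S, hS, hSo⟩ := H89.PSpFour.exists_sl_two K s
  let ψ : Matrix.SpecialLinearGroup (Fin 2) K →* GL chevG2.Idx K :=
    φ.comp (blockHom.comp Matrix.SpecialLinearGroup.toGL)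
  have hψ : Function.Injective ψ :=
    φ_injective.comp (blockHom_injective.comp fun A B e => Subtype.ext (congrArg Units.val e))
  have htr : ∀ (i j : Fin 2) (hij : i ≠ j) (t : K), ψ (Matrix.SpecialLinearGroup.transvection hij t) =
      Good.xg goodG2 (longRoot (Fin.castSucc i) (Fin.castSucc j)).val t := by
    intro i j hij t
    have hij' : Fin.castSucc i ≠ Fin.castSucc j := fun e => hij (Fin.castSucc_injective _ e)
    have e : blockHom (Matrix.SpecialLinearGroup.toGL (Matrix.SpecialLinearGroup.transvection hij t)) =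
        Matrix.SpecialLinearGroup.transvection hij' t := by
      apply Subtype.ext
      have hd := (Matrix.SpecialLinearGroup.transvection hij t).2
      ext a b
      fin_cases i <;> fin_cases j <;> first
        | exact absurd rfl hij
        | (fin_cases a <;> fin_cases b <;>
            simp [blockHom_coe, Matrix.SpecialLinearGroup.transvection_coe, Matrix.single_apply, Matrix.det_fin_two,
              Matrix.one_apply, Fin.ext_iff])
    refine Units.ext ?_
    show φMat (blockHom _) = _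
    rw [e, φ_transvection hij' t]
    rfl
  have hcomm : ∀ A, Commute (ψ A) x⟪9, 1⟫ := by
    intro A
    have h : (Subgroup.centralizer ({x⟪9, 1⟫} : Set (GL chevG2.Idx K))).comap ψ = ⊤ :=
      H70.eq_top_of_transvection_mem _ fun i j hij t => by
        rw [Subgroup.mem_comap, Subgroup.mem_centralizer_singleton_iff, htr i j hij t]
        obtain ⟨c6, c5, n6, n5⟩ := comm_nine
        fin_cases i <;> fin_cases j <;> first
          | exact absurd rfl hij
          | exact (goodG2.xg_commute (r := 6) (s := 9) (by decide) (by decide) n6 c6 t 1).eq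
          | exact (goodG2.xg_commute (r := 6) (s := 9) (by decide) (by decide) n6 c6 t 1).eq.symm
          | exact (goodG2.xg_commute (r := 5) (s := 9) (by decide) (by decide) n5 c5 t 1).eq
          | exact (goodG2.xg_commute (r := 5) (s := 9) (by decide) (by decide) n5 c5 t 1).eq.symm
    have hA : A ∈ (Subgroup.centralizer ({x⟪9, 1⟫} : Set (GL chevG2.Idx K))).comap ψ := h ▸ Subgroup.mem_top A
    rw [Subgroup.mem_comap, Subgroup.mem_centralizer_singleton_iff] at hA
    first | exact hA | exact hA.symm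
  have ho2 : orderOf x⟪9, (1 : K)⟫ = 2 := by
    refine orderOf_eq_prime ?_ fun e => xTwo_nine_ne ?_
    · rw [pow_two, goodG2.xg_add, CharTwo.add_self_eq_zero]
      exact Units.ext (goodG2.x_zero' 9)
    · refine Matrix.map_injective (fromTwo K).injective ?_
      beta_reduce
      rw [x_fromTwo, Matrix.map_one _ (map_zero _) (map_one _)]
      exact congrArg Units.val e
  let S' : Matrix.SpecialLinearGroup (Fin 2) K := ⟨S, hS⟩
  have hoS : orderOf (ψ S') = H89.PSpFour.pmOne (Fintype.card K) s := by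
    rw [orderOf_injective ψ hψ, ← hSo,
      ← orderOf_injective (Matrix.SpecialLinearGroup.toGL : Matrix.SpecialLinearGroup (Fin 2) K →* _)
        (fun A B e => Subtype.ext (congrArg Units.val e)), ← orderOf_units]
    rfl
  have hodd : Odd (H89.PSpFour.pmOne (Fintype.card K) s) := by
    have he : Even (Fintype.card K) := by
      obtain ⟨n, -, hn⟩ := FiniteField.card K 2
      rw [hn, Nat.even_pow]; exact ⟨even_two, n.ne_zero⟩
    unfold H89.PSpFour.pmOne
    split
    · exact he.add_one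
    · exact Nat.Even.sub_odd Fintype.card_pos he odd_one
  refine ⟨⟨ψ S' * x⟪9, 1⟫, mul_mem (φ_mem_group _) (goodG2.xg_mem_group _ _)⟩, ?_⟩
  rw [← Subgroup.orderOf_coe]
  show orderOf (ψ S' * x⟪9, 1⟫) = _
  rw [(hcomm S').orderOf_mul_eq_mul_orderOf_of_coprime (by rw [hoS, ho2]; exact hodd.coprime_two_right), hoS, ho2,
    mul_comm]

/-- The matrix of the transposition of the first two coordinates. -/
def perm3 : Matrix (Fin 3) (Fin 3) K := !![0, 1, 0; 1, 0, 0; 0, 0, 1]

theorem perm3_sq : (perm3 : Matrix (Fin 3) (Fin 3) K) * perm3 = 1 := by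
  ext i j; fin_cases i <;> fin_cases j <;> simp [perm3, Matrix.mul_apply, Fin.sum_univ_three]

theorem perm3_det [CharP K 2] : (perm3 : Matrix (Fin 3) (Fin 3) K).det = 1 := by
  simp [perm3, Matrix.det_fin_three, CharTwo.neg_eq]

/-- The contragredient twist by the transposition. -/
noncomputable def twist [CharP K 2] : SL3 →* SL3 :=
  MonoidHom.mk' (fun g => ⟨perm3 * ((g⁻¹ : SL3) : Matrix (Fin 3) (Fin 3) K)ᵀ * perm3, by
      rw [det_mul, det_mul, det_transpose, perm3_det, (g⁻¹).2, mul_one, mul_one]⟩) fun g h => by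
    apply Subtype.ext
    show perm3 * (((g * h)⁻¹ : SL3) : Matrix (Fin 3) (Fin 3) K)ᵀ * perm3 =
      (perm3 * ((g⁻¹ : SL3) : Matrix (Fin 3) (Fin 3) K)ᵀ * perm3) *
        (perm3 * ((h⁻¹ : SL3) : Matrix (Fin 3) (Fin 3) K)ᵀ * perm3)
    rw [_root_.mul_inv_rev, Matrix.SpecialLinearGroup.coe_mul, transpose_mul]
    simp only [mul_assoc]
    rw [← mul_assoc (perm3 : Matrix (Fin 3) (Fin 3) K) perm3, perm3_sq, one_mul]

/-- The involution in the Chevalley group. -/
noncomputable def nG (K : Type*) [Field K] : GL chevG2.Idx K :=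
  goodG2.xg 2 1 * goodG2.xg 9 1 * goodG2.xg 2 1

theorem coe_nG [CharP K 2] : (nG K : Matrix chevG2.Idx chevG2.Idx K) = nTwo.map (fromTwo K) := by
  rw [← nTwo_def, Matrix.map_mul, Matrix.map_mul, x_fromTwo, x_fromTwo]; rfl

/-- The involution acts on the image of `SL₃` as the twist. -/
theorem nG_conj [CharP K 2] (g : SL3) : nG K * φ g * nG K = φ (twist g) := by
  have hn : nG K * nG K = 1 := Units.ext (by
    rw [Units.val_mul, Units.val_one, coe_nG, ← Matrix.map_mul, nTwo_sq, Matrix.map_one _ (map_zero _) (map_one _)])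
  have hinv : (nG K)⁻¹ = nG K := inv_eq_of_mul_eq_one_right hn
  let f : SL3 →* GL chevG2.Idx K := (MulAut.conj (nG K)).toMonoidHom.comp φ
  have h : f.eqLocus (φ.comp twist) = ⊤ := H70.eq_top_of_transvection_mem _ fun i j hij t => by
    have hp : swap01 j ≠ swap01 i := by
      intro e; fin_cases i <;> fin_cases j <;> simp [swap01] at e hij ⊢
    have e : twist (Matrix.SpecialLinearGroup.transvection hij t) =
        Matrix.SpecialLinearGroup.transvection hp t := by
      apply Subtype.ext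
      show perm3 * ((Matrix.SpecialLinearGroup.transvection hij t)⁻¹ : SL3).1ᵀ * perm3 = _
      rw [Matrix.SpecialLinearGroup.transvection_inv]
      ext a b
      fin_cases i <;> fin_cases j <;> first
        | exact absurd rfl hij
        | (fin_cases a <;> fin_cases b <;>
            simp [perm3, swap01, Matrix.SpecialLinearGroup.transvection_coe, Matrix.single_apply, Matrix.one_apply,
              Matrix.mul_apply, Matrix.vecMul, dotProduct, Fin.sum_univ_three, CharTwo.neg_eq])
    show nG K * φ _ * (nG K)⁻¹ = φ (twist _)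
    rw [hinv, e]
    apply Units.ext
    rw [Units.val_mul, Units.val_mul, coe_φ, coe_φ, φ_transvection hij, φ_transvection hp, coe_nG]
    have cast2 : ∀ A : Matrix chevG2.Idx chevG2.Idx ℤ,
        A.map (Int.castRingHom K) = (A.map (Int.castRingHom (ZMod 2))).map (fromTwo K) := fun A => by
      ext a b; simp
    obtain ⟨-, -, h3⟩ := coef_check i j hij
    obtain ⟨-, -, h3'⟩ := coef_check _ _ hp
    obtain ⟨c1, c2⟩ := nTwo_coef i j hij
    rw [ChevalleyDatum.x, dif_pos (show (longRoot i j).val < chevG2.nroots from (longRoot i j).2),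
      ChevalleyDatum.x, dif_pos (show (longRoot (swap01 j) (swap01 i)).val < chevG2.nroots from
        (longRoot (swap01 j) (swap01 i)).2)]
    show _ * chevG2.xMat K (longRoot i j) t * _ = chevG2.xMat K (longRoot (swap01 j) (swap01 i)) t
    rw [xMat_eq _ h3, xMat_eq _ h3', cast2 (coef1 _), cast2 (coef2 _), cast2 (coef1 _), cast2 (coef2 _), ← c1, ← c2]
    simp only [Matrix.mul_add, Matrix.add_mul, Matrix.mul_one, Matrix.map_mul, Matrix.mul_smul, Matrix.smul_mul]
    rw [← Matrix.map_mul (f := fromTwo K), nTwo_sq, Matrix.map_one _ (map_zero _) (map_one _)]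
  have := (h ▸ Subgroup.mem_top g : g ∈ f.eqLocus (φ.comp twist))
  rw [← hinv]
  nth_rewrite 1 [hinv]
  exact this

/-- A unitary element of order `q² - q + 1`. -/
theorem exists_unitary [Fintype K] [CharP K 2] {q : ℕ} (hK : Fintype.card K = q ^ 2) (h3 : 3 ≤ q) :
    ∃ A : SL3, orderOf A = q ^ 2 - q + 1 ∧
      (A : Matrix (Fin 3) (Fin 3) K)ᵀ * (A : Matrix (Fin 3) (Fin 3) K).map (fun u => u ^ q) = 1 := by
  classical
  obtain ⟨x, hx⟩ := H71.UnitaryThree.lower_cubic hK h3
  obtain ⟨b, rfl⟩ := QuotientGroup.mk_surjective x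
  set m := q ^ 2 - q + 1 with hm
  set d := Nat.gcd 3 (q + 1) with hd
  have hkb : m / d ∣ orderOf b := hx.trans (orderOf_map_dvd (QuotientGroup.mk' _) b)
  have hdm : d ∣ m := H71.UnitaryThree.dvd_sq_sub_q_add_one (Nat.gcd_dvd_right _ _) (Nat.gcd_dvd_left _ _)
  obtain ⟨c, hc⟩ : ∃ c : Cfsg.SU 3 K q, orderOf c = m / d := ⟨b ^ (orderOf b / (m / d)), orderOf_pow_orderOf_div
    (orderOf_pos b).ne' hkb⟩
  have hu : ∀ g : Cfsg.SU 3 K q,
      (g.1 : Matrix (Fin 3) (Fin 3) K)ᵀ * (g.1 : Matrix (Fin 3) (Fin 3) K).map (fun a => a ^ q) = 1 := by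
    intro g
    ext i j
    have := H3.mem_SU_iff.1 g.2 (Pi.single i 1) (Pi.single j 1)
    rw [H3.hermForm_single_left, one_mul] at this
    simp only [Cfsg.hermForm, mulVec_single_one, Pi.single_apply, Matrix.col_apply] at this
    rw [Matrix.mul_apply, one_apply]
    simp only [transpose_apply, map_apply]
    rw [this]
    have hq0 : q ≠ 0 := by omega
    split_ifs <;> simp [hq0]
  rcases (Nat.dvd_prime Nat.prime_three).1 (Nat.gcd_dvd_left 3 (q + 1)) with h1 | h1
  · refine ⟨c.1, ?_, hu c⟩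
    rw [Subgroup.orderOf_coe, hc, hd, h1, Nat.div_one]
  -- a scalar of order three
  have h3q : 3 ∣ q + 1 := h1 ▸ Nat.gcd_dvd_right 3 (q + 1)
  obtain ⟨ω, hω⟩ : ∃ ω : Kˣ, orderOf ω = 3 := by
    refine exists_prime_orderOf_dvd_card 3 ?_
    rw [Fintype.card_units, hK, H71.UnitaryThree.sq_sub_one_eq]
    exact h3q.mul_right _
  have hω3 : (ω : K) ^ 3 = 1 := by
    rw [← Units.val_pow_eq_pow_val, ← hω, pow_orderOf_eq_one, Units.val_one]
  have hωq : (ω : K) * (ω : K) ^ q = 1 := by
    obtain ⟨l, hl⟩ := h3q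
    rw [← pow_succ', hl, pow_mul, hω3, one_pow]
  let S : SL3 := ⟨Matrix.diagonal fun _ => (ω : K), by
    rw [Matrix.det_diagonal, Fin.prod_univ_three, ← hω3]; ring⟩
  have hS : orderOf S = 3 := by
    refine Eq.trans ?_ hω
    refine orderOf_eq_orderOf_iff.mpr fun N => ?_
    constructor
    · intro h
      have h0 := congrFun (congrFun (congrArg Subtype.val h) 0) 0
      rw [Matrix.SpecialLinearGroup.coe_pow, Matrix.diagonal_pow] at h0
      exact Units.ext (by simpa using h0)
    · intro h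
      apply Subtype.ext
      rw [Matrix.SpecialLinearGroup.coe_pow, Matrix.diagonal_pow]
      show Matrix.diagonal _ = 1
      rw [← Matrix.diagonal_one]
      congr 1
      funext i
      simp [← Units.val_pow_eq_pow_val, h]
  have hcom : Commute c.1 S := Subtype.ext (by
    rw [Matrix.SpecialLinearGroup.coe_mul, Matrix.SpecialLinearGroup.coe_mul]
    ext i j
    simp [S, Matrix.mul_diagonal, Matrix.diagonal_mul, mul_comm])
  obtain ⟨l, hl⟩ : 3 ∣ q + 1 := h3q
  have hm3 : m / 3 * 3 = m := Nat.div_mul_cancel (by rw [← h1, ← hd]; exact hdm)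
  have hcop : Nat.Coprime (m / 3) 3 := by
    refine ((Nat.prime_three.coprime_iff_not_dvd).2 ?_).symm
    intro hdd
    obtain ⟨k, hk⟩ := hdd
    have hqq : q ≤ q ^ 2 := Nat.le_self_pow two_ne_zero q
    have e : m + 3 * q = (q + 1) * (q + 1) := by rw [hm]; nlinarith [Nat.sub_add_cancel hqq]
    rw [hl] at e
    obtain ⟨u, hu'⟩ : ∃ u, u = l * l := ⟨_, rfl⟩
    have e' : 3 * l * (3 * l) = 9 * u := by rw [hu']; ring
    omega
  refine ⟨c.1 * S, ?_, ?_⟩
  · rw [hcom.orderOf_mul_eq_mul_orderOf_of_coprime, Subgroup.orderOf_coe, hc, hS, hd, h1, hm3]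
    rw [Subgroup.orderOf_coe, hc, hS, hd, h1]; exact hcop
  · rw [Matrix.SpecialLinearGroup.coe_mul]
    show ((c.1 : Matrix (Fin 3) (Fin 3) K) * Matrix.diagonal fun _ => (ω : K))ᵀ *
      ((c.1 : Matrix (Fin 3) (Fin 3) K) * Matrix.diagonal fun _ => (ω : K)).map (fun u => u ^ q) = 1
    have hsm : ∀ M : Matrix (Fin 3) (Fin 3) K, M * Matrix.diagonal (fun _ => (ω : K)) = (ω : K) • M := fun M => by
      ext i j; simp [Matrix.mul_diagonal, mul_comm]
    rw [hsm, transpose_smul, show ((ω : K) • (c.1 : Matrix (Fin 3) (Fin 3) K)).map (fun u => u ^ q) =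
      (ω : K) ^ q • (c.1 : Matrix (Fin 3) (Fin 3) K).map (fun u => u ^ q) by ext i j; simp [mul_pow],
      Matrix.smul_mul, Matrix.mul_smul, smul_smul, hu, hωq, one_smul]

/-- The twisted torus. -/
theorem mem_range_twisted [Fintype K] [CharP K 2] {q : ℕ} (a : ℕ) (hqa : q = 2 ^ a)
    (hK : Fintype.card K = q) (h3 : 3 ≤ q) :
    q ^ 2 - q + 1 ∈ Set.range (orderOf : ↥(chevG2.group K) → ℕ) := by
  classical
  let L := FiniteField.Extension K 2 2
  have := Fintype.ofFinite L
  have hfr : Module.finrank K L = 2 := FiniteField.finrank_extension K 2 2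
  have : Module.Finite K L := Module.finite_of_finrank_eq_succ hfr
  have hL : Fintype.card L = q ^ 2 := by rw [Module.card_eq_pow_finrank (K := K), hfr, hK]
  have : CharP L 2 := charP_of_injective_algebraMap (algebraMap K L).injective 2
  let σ : L ≃+* L := iterateFrobeniusEquiv L 2 a
  have hσ : ∀ u, σ u = u ^ q := fun u => by rw [hqa]; exact iterateFrobenius_def 2 a u
  have hσ2 : ∀ u : L, (u ^ q) ^ q = u := fun u => by rw [← pow_mul, ← pow_two, ← hL, FiniteField.pow_card]
  have hfix : ∀ u, σ u = u ↔ u ∈ Set.range (algebraMap K L) := by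
    intro u
    rw [hσ]
    constructor
    · intro h
      obtain ⟨e, he⟩ := H71.UnitaryThree.exists_algebraMap_eq (F := K) (x := u) (by rwa [hK])
      exact ⟨e, he⟩
    · rintro ⟨e, rfl⟩
      rw [← map_pow, ← hK, FiniteField.pow_card]
  obtain ⟨z, hz⟩ : ∃ z : L, z ^ q = z + 1 := by
    obtain ⟨u, hu⟩ : ∃ u : L, u ^ q ≠ u := by
      by_contra h
      push Not at h
      have hall : Function.Surjective (algebraMap K L) := fun u => (hfix u).1 (by rw [hσ, h])
      have := Fintype.card_le_of_surjective _ hall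
      rw [hL, hK] at this
      nlinarith
    have hne : u + u ^ q ≠ 0 := fun e => hu (CharTwo.add_eq_zero.1 e).symm
    refine ⟨u / (u + u ^ q), ?_⟩
    rw [div_pow, show (u + u ^ q) ^ q = u + u ^ q by
      rw [← hσ, map_add, hσ, hσ, hσ2, add_comm]]
    rw [div_add_one hne]
    congr 1
    linear_combination -(u) * (CharTwo.two_eq_zero : (2 : L) = 0)
  obtain ⟨A, hA, hAu⟩ := exists_unitary (K := L) hL h3
  -- move the standard hermitian form to the twisted one
  let C : Matrix.SpecialLinearGroup (Fin 3) L := ⟨!![1, z, 0; 1, z + 1, 0; 0, 0, 1], by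
    simp [Matrix.det_fin_three]⟩
  have hC : (C : Matrix (Fin 3) (Fin 3) L)ᵀ * (C : Matrix (Fin 3) (Fin 3) L).map σ = perm3 := by
    have h2 : (2 : L) = 0 := CharTwo.two_eq_zero
    ext i j
    fin_cases i <;> fin_cases j <;>
      simp [C, perm3, Matrix.mul_apply, Fin.sum_univ_three, hσ z, hz] <;>
      first
        | linear_combination h2
        | linear_combination z * h2
        | linear_combination (z + 1) * h2
        | linear_combination (z * z + 2 * z + 1) * h2
        | (ring_nf; simp [h2])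
  set A' := C⁻¹ * A * C with hA'
  have hA'o : orderOf A' = q ^ 2 - q + 1 := by
    rw [← hA, hA', show C⁻¹ * A * C = MulAut.conj C⁻¹ A by simp]
    exact orderOf_injective (MulAut.conj C⁻¹).toMonoidHom (MulAut.conj C⁻¹).injective A
  let mσ : Matrix.SpecialLinearGroup (Fin 3) L →* Matrix.SpecialLinearGroup (Fin 3) L :=
    Matrix.SpecialLinearGroup.map (σ : L →+* L)
  have hmσ : ∀ X, ((mσ X : Matrix.SpecialLinearGroup (Fin 3) L) : Matrix (Fin 3) (Fin 3) L) =
      (X : Matrix (Fin 3) (Fin 3) L).map σ := fun X => rfl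
  have hAσ : (A : Matrix (Fin 3) (Fin 3) L).map σ = (A : Matrix (Fin 3) (Fin 3) L).map (fun u => u ^ q) := by
    ext i j; exact hσ _
  have hform : (A' : Matrix (Fin 3) (Fin 3) L)ᵀ * perm3 * (mσ A' : Matrix (Fin 3) (Fin 3) L) = perm3 := by
    have h1 : (C : Matrix (Fin 3) (Fin 3) L) * (A' : Matrix (Fin 3) (Fin 3) L) =
        (A : Matrix (Fin 3) (Fin 3) L) * (C : Matrix (Fin 3) (Fin 3) L) := by
      rw [← Matrix.SpecialLinearGroup.coe_mul, ← Matrix.SpecialLinearGroup.coe_mul, hA']
      congr 1; simp [mul_assoc]; rfl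
    calc (A' : Matrix (Fin 3) (Fin 3) L)ᵀ * perm3 * (mσ A' : Matrix (Fin 3) (Fin 3) L)
        = ((C : Matrix (Fin 3) (Fin 3) L) * (A' : Matrix (Fin 3) (Fin 3) L))ᵀ *
            ((C : Matrix (Fin 3) (Fin 3) L) * (A' : Matrix (Fin 3) (Fin 3) L)).map (σ : L →+* L) := by
          rw [← hC, transpose_mul, Matrix.map_mul, hmσ]
          simp only [mul_assoc]
          rfl
      _ = perm3 := by
          rw [h1, transpose_mul, Matrix.map_mul, ← hC]
          have hAu' : (A : Matrix (Fin 3) (Fin 3) L)ᵀ * (A : Matrix (Fin 3) (Fin 3) L).map (σ : L →+* L) = 1 := by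
            rw [← hAu, ← hAσ]; rfl
          rw [mul_assoc, ← mul_assoc ((A : Matrix (Fin 3) (Fin 3) L)ᵀ), hAu', one_mul]
          rfl
  have htw : twist (mσ A') = A' := by
    have h1 : perm3 * (mσ A' : Matrix (Fin 3) (Fin 3) L) = ((A'⁻¹ : _) : Matrix (Fin 3) (Fin 3) L)ᵀ * perm3 := by
      have h2 : ((A'⁻¹ : _) : Matrix (Fin 3) (Fin 3) L)ᵀ * (A' : Matrix (Fin 3) (Fin 3) L)ᵀ = 1 := by
        rw [← transpose_mul, ← Matrix.SpecialLinearGroup.coe_mul, mul_inv_cancel,
          Matrix.SpecialLinearGroup.coe_one, transpose_one]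
      nth_rewrite 2 [← hform]
      rw [← mul_assoc, ← mul_assoc, h2, one_mul]
    have h3 : mσ A' = twist A' := by
      apply Subtype.ext
      show _ = perm3 * ((A'⁻¹ : _) : Matrix (Fin 3) (Fin 3) L)ᵀ * perm3
      rw [mul_assoc, ← h1, ← mul_assoc, perm3_sq, one_mul]
    have hinv : ∀ X : Matrix.SpecialLinearGroup (Fin 3) L, twist (twist X) = X := by
      intro X
      apply Subtype.ext
      show perm3 * (((twist X)⁻¹ : _) : Matrix (Fin 3) (Fin 3) L)ᵀ * perm3 = _
      rw [← map_inv]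
      show perm3 * (perm3 * (((X⁻¹)⁻¹ : _) : Matrix (Fin 3) (Fin 3) L)ᵀ * perm3)ᵀ * perm3 = _
      have hp : (perm3 : Matrix (Fin 3) (Fin 3) L)ᵀ = perm3 := by
        ext i j; fin_cases i <;> fin_cases j <;> simp [perm3]
      rw [transpose_mul, transpose_mul, transpose_transpose, hp, inv_inv]
      simp only [← mul_assoc]
      rw [perm3_sq, one_mul, mul_assoc, perm3_sq, mul_one]
    rw [h3, hinv]
  -- descend
  let k : GL chevG2.Idx L := goodG2.xg 2 1
  let g : GL chevG2.Idx L := k * goodG2.xg 9 z * k⁻¹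
  have hk : k⁻¹ = k := inv_eq_of_mul_eq_one_right (by
    show goodG2.xg 2 1 * goodG2.xg 2 1 = 1
    rw [goodG2.xg_add, CharTwo.add_self_eq_zero]
    exact Units.ext (goodG2.x_zero' 2))
  have hgσ : H65.mapGL chevG2 (σ : L →+* L) g = g * nG L := by
    simp only [g, k, map_mul, map_inv, H65.mapGL_xg goodG2, map_one]
    rw [show (σ : L →+* L) z = z + 1 from (hσ z).trans hz, ← goodG2.xg_add]
    rw [show (goodG2.xg 2 (1 : L))⁻¹ = goodG2.xg 2 1 from hk, nG]
    simp only [mul_assoc]
    rw [← mul_assoc (goodG2.xg 2 (1 : L)) (goodG2.xg 2 1) _,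
      show goodG2.xg 2 (1 : L) * goodG2.xg 2 1 = 1 from by rw [goodG2.xg_add, CharTwo.add_self_eq_zero]; exact Units.ext (goodG2.x_zero' 2),
      one_mul]
  set h := g * φ A' * g⁻¹ with hh
  have hgG : g ∈ chevG2.group L :=
    mul_mem (mul_mem (goodG2.xg_mem_group _ _) (goodG2.xg_mem_group _ _)) (inv_mem (goodG2.xg_mem_group _ _))
  have hhG : h ∈ chevG2.group L := mul_mem (mul_mem hgG (φ_mem_group _)) (inv_mem hgG)
  have hφσ : H65.mapGL chevG2 (σ : L →+* L) (φ A') = φ (mσ A') := by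
    apply Units.ext
    rw [H65.coe_mapGL, coe_φ, coe_φ]
    exact (φMat_map (σ : L →+* L) A').symm
  have hninv : (nG L)⁻¹ = nG L := inv_eq_of_mul_eq_one_right (Units.ext (by
    rw [Units.val_mul, Units.val_one, coe_nG, ← Matrix.map_mul, nTwo_sq, Matrix.map_one _ (map_zero _) (map_one _)]))
  have hhσ : H65.mapGL chevG2 (σ : L →+* L) h = h := by
    rw [hh, map_mul, map_mul, map_inv, hgσ, hφσ, _root_.mul_inv_rev, hninv]
    calc g * nG L * φ (mσ A') * (nG L * g⁻¹) = g * (nG L * φ (mσ A') * nG L) * g⁻¹ := by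
          simp only [mul_assoc]
      _ = g * φ A' * g⁻¹ := by rw [nG_conj, htw]
  obtain ⟨h₀, h₀G, h₀e⟩ := H65.group_fixed goodG2 (algebraMap K L) σ H65.unimod_G2 hfix hhG hhσ
  refine ⟨⟨h₀, h₀G⟩, ?_⟩
  rw [← Subgroup.orderOf_coe]
  show orderOf h₀ = _
  rw [← orderOf_injective _ (H65.mapGL_injective (algebraMap K L)) h₀, h₀e, hh, ← MulAut.conj_apply, ← hA'o,
    ← orderOf_injective φ φ_injective A']
  exact orderOf_injective (MulAut.conj g).toMonoidHom (MulAut.conj g).injective _

end Cfsg.Agent.H62.G2Orders
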