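/-
Every element order of `G₂(q)`, `q` even, divides one of seven numbers.
-/
import Cfsg.Agent.H62.G2Orders.Base

set_option autoImplicit false

open Matrix Cfsg.Lie Polynomial
open Cfsg.Agent.H62.Covering.G2

namespace Cfsg.Agent.H62.G2Orders

section bilinear

variable {K : Type*} [Field K]

local notation "O" => (Fin 8 → K)

set_option maxHeartbeats 1000000 in
/-- The product as a bilinear map. -/
def zornBil : O →ₗ[K] O →ₗ[K] O :=
  LinearMap.mk₂ K zornMul
    (fun x x' y => by funext i; fin_cases i <;> simp [zornMul, dot3, cross3] <;> ring)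
    (fun c x y => by funext i; fin_cases i <;> simp [zornMul, dot3, cross3] <;> ring)
    (fun x y y' => by funext i; fin_cases i <;> simp [zornMul, dot3, cross3] <;> ring)
    (fun c x y => by funext i; fin_cases i <;> simp [zornMul, dot3, cross3] <;> ring)

/-- Automorphisms may be tested on unit vectors. -/
theorem mem_G2_of_single (g : GL (Fin 8) K)
    (h : ∀ i j : Fin 8, (g : Matrix (Fin 8) (Fin 8) K) *ᵥ zornMul (Pi.single i 1) (Pi.single j 1) =
      zornMul ((g : Matrix (Fin 8) (Fin 8) K) *ᵥ Pi.single i 1) ((g : Matrix (Fin 8) (Fin 8) K) *ᵥ Pi.single j 1)) :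
    g ∈ Lie.G2 K := by
  intro x y
  set L := Matrix.mulVecLin (g : Matrix (Fin 8) (Fin 8) K)
  have key : (zornBil (K := K)).compr₂ L = zornBil.compl₁₂ L L := by
    refine (Pi.basisFun K (Fin 8)).ext fun i => (Pi.basisFun K (Fin 8)).ext fun j => ?_
    simpa [L, zornBil, Pi.basisFun_apply] using h i j
  exact LinearMap.congr_fun (LinearMap.congr_fun key x) y

end bilinear

section map

variable {F K : Type*} [Field F] [Field K] (f : F →+* K)

theorem map_zornMul (x y : Fin 8 → F) : zornMul (f ∘ x) (f ∘ y) = f ∘ zornMul x y := by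
  funext i; fin_cases i <;> simp [zornMul, dot3, cross3]

theorem comp_mulVec (M : Matrix (Fin 8) (Fin 8) F) (v : Fin 8 → F) : M.map f *ᵥ (f ∘ v) = f ∘ (M *ᵥ v) :=
  (funext (RingHom.map_mulVec f M v)).symm

theorem map_mem_G2 (g : ↥(Lie.G2 F)) :
    Units.map (f.mapMatrix : Matrix (Fin 8) (Fin 8) F →+* _).toMonoidHom (g : GL (Fin 8) F) ∈ Lie.G2 K := by
  refine mem_G2_of_single _ fun i j => ?_
  have hs : ∀ i : Fin 8, (Pi.single i (1 : K) : Fin 8 → K) = f ∘ Pi.single i 1 := fun i => by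
    funext l; by_cases hl : l = i <;> simp [hl, Pi.single_apply]
  show (mat g).map f *ᵥ _ = zornMul ((mat g).map f *ᵥ _) ((mat g).map f *ᵥ _)
  rw [hs, hs, map_zornMul, comp_mulVec, comp_mulVec, comp_mulVec, map_zornMul, map_mul']

/-- Extension of scalars. -/
def mapG2 : ↥(Lie.G2 F) →* ↥(Lie.G2 K) :=
  MonoidHom.codRestrict ((Units.map (f.mapMatrix : Matrix (Fin 8) (Fin 8) F →+* _).toMonoidHom).comp
    (Lie.G2 F).subtype) _ (map_mem_G2 f)

theorem mat_mapG2 (g : ↥(Lie.G2 F)) : mat (mapG2 f g) = (mat g).map f := rfl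

theorem mapG2_injective : Function.Injective (mapG2 f) := fun _ _ h =>
  Subtype.ext (Units.ext (Matrix.map_injective f.injective (congrArg (fun k => mat k) h)))

end map

section perm

variable {K : Type*} [Field K]

/-- An injective map of three numbers into themselves. -/
theorem perm_three {a b c : K} (φ : K → K) (hinj : Function.Injective φ) (hab : a ≠ b) (hac : a ≠ c) (hbc : b ≠ c)
    (h : ∀ x, x = a ∨ x = b ∨ x = c → φ x = a ∨ φ x = b ∨ φ x = c) :
    (φ (φ a) = a ∧ φ (φ b) = b ∧ φ (φ c) = c) ∨ (φ a = b ∧ φ b = c ∧ φ c = a) ∨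
      (φ a = c ∧ φ b = a ∧ φ c = b) := by
  have nab : φ a ≠ φ b := fun e => hab (hinj e)
  have nac : φ a ≠ φ c := fun e => hac (hinj e)
  have nbc : φ b ≠ φ c := fun e => hbc (hinj e)
  rcases h a (Or.inl rfl) with ha | ha | ha <;> rcases h b (Or.inr (Or.inl rfl)) with hb | hb | hb <;>
    rcases h c (Or.inr (Or.inr rfl)) with hc | hc | hc <;> simp_all

/-- Three linear factors divide `X ^ M - 1`. -/
theorem prod_dvd (a b c : K) {M : ℕ} (hM : ∀ x, x = a ∨ x = b ∨ x = c → x ^ M = 1) (hab : a ≠ b) (hac : a ≠ c)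
    (hbc : b ≠ c) : (X - C a) * (X - C b) * (X - C c) ∣ X ^ M - 1 := by
  have hd : ∀ x, x = a ∨ x = b ∨ x = c → (X - C x) ∣ X ^ M - 1 := fun x hx => by
    rw [dvd_iff_isRoot]; simp [hM x hx]
  have hco : ∀ {x y : K}, x ≠ y → IsCoprime (X - C x) (X - C y) := fun hxy =>
    Polynomial.isCoprime_X_sub_C_of_isUnit_sub (sub_ne_zero.2 hxy).isUnit
  exact ((hco hac).mul_left (hco hbc)).mul_dvd ((hco hab).mul_dvd (hd _ (Or.inl rfl)) (hd _ (Or.inr (Or.inl rfl))))
    (hd _ (Or.inr (Or.inr rfl)))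

variable [CharP K 2]

theorem sq_dvd (a c : K) {M : ℕ} (ha : a ^ M = 1) (hc : c ^ M = 1) (hac : a ≠ c) :
    (X - C a) * (X - C a) * (X - C c) ∣ X ^ (2 * M) - 1 := by
  have h : (X - C a) * (X - C c) ∣ X ^ M - 1 :=
    (Polynomial.isCoprime_X_sub_C_of_isUnit_sub (sub_ne_zero.2 hac).isUnit).mul_dvd
      (by rw [dvd_iff_isRoot]; simp [ha]) (by rw [dvd_iff_isRoot]; simp [hc])
  have e : (X : K[X]) ^ (2 * M) - 1 = (X ^ M - 1) ^ 2 := by
    have := sub_pow_char (p := 2) (X ^ M : K[X]) 1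
    rw [this, one_pow, mul_comm, pow_mul]
  rw [e]
  exact Dvd.dvd.trans ⟨X - C c, by ring⟩ (pow_dvd_pow_of_dvd h 2)

theorem cube_dvd (a : K) {M : ℕ} (ha : a ^ M = 1) :
    (X - C a) * (X - C a) * (X - C a) ∣ X ^ (4 * M) - 1 := by
  have e : (X - C a) ^ 4 = X ^ 4 - C a ^ 4 := sub_pow_char_pow (p := 2) (n := 2) X (C a)
  have h1 : (X - C a) * (X - C a) * (X - C a) ∣ (X - C a) ^ 4 := ⟨X - C a, by ring⟩
  refine h1.trans (e ▸ ?_)
  have := sub_dvd_pow_sub_pow (X ^ 4 : K[X]) (C a ^ 4) M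
  rwa [← pow_mul, ← pow_mul, ← C_pow, ← C_pow, pow_mul' a 4 M, ha, one_pow, C_1, C_pow] at this

end perm

/-- The seven numbers. -/
def maxSet (a : ℕ) : Set ℕ :=
  {8, 12, 2 * (2 ^ a + 1), 2 * (2 ^ a - 1), 2 ^ (2 * a) - 1, 2 ^ (2 * a) + 2 ^ a + 1, 2 ^ (2 * a) - 2 ^ a + 1}

theorem pow_eq_one_of_mul {K : Type*} [Field K] {x : K} {m k : ℕ} (h : x ^ (m + k) = x ^ k) (hx : x ≠ 0) :
    x ^ m = 1 := by
  rw [pow_add] at h
  exact (mul_eq_right₀ (pow_ne_zero k hx)).1 h

section cases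

variable {K : Type*} [Field K] [CharP K 2]

/-- The roots of a determinant one cubic, closed under `u ↦ u ^ q` or `u ↦ (u ^ q)⁻¹`. -/
theorem fixed_case (a : ℕ) {q : ℕ} (hqdef : q = 2 ^ a) (σ : K →+* K) (hσ : ∀ x, σ x = x ^ q)
    (k : ↥(Lie.G2 K)) {r₁ r₂ r₃ t s : K} (hprod : r₁ * r₂ * r₃ = 1) (hsum : r₁ + r₂ + r₃ = t)
    (hsum2 : r₁ * r₂ + r₁ * r₃ + r₂ * r₃ = s)
    (hpow : ∀ M : ℕ, (X - C r₁) * (X - C r₂) * (X - C r₃) ∣ X ^ M - 1 → k ^ M = 1)
    (hts : (t ^ q = t ∧ s ^ q = s) ∨ (t ^ q = s ∧ s ^ q = t)) : ∃ n ∈ maxSet a, k ^ n = 1 := by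
  have hq2 : 2 ^ (2 * a) = q * q := by rw [hqdef, two_mul, pow_add]
  have hq1 : 1 ≤ q := hqdef ▸ Nat.one_le_two_pow
  have hqa : 2 ^ a = q := hqdef.symm
  have hne : ∀ x, x = r₁ ∨ x = r₂ ∨ x = r₃ → x ≠ 0 := by
    rintro x (rfl | rfl | rfl) h0 <;> simp [h0] at hprod
  have hev : ∀ u, (u - r₁) * (u - r₂) * (u - r₃) = u ^ 3 - t * u ^ 2 + s * u - 1 := fun u => by
    rw [← hsum, ← hsum2, ← hprod]; ring
  have hmem : ∀ u, u ^ 3 - t * u ^ 2 + s * u - 1 = 0 → u = r₁ ∨ u = r₂ ∨ u = r₃ := fun u hu => by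
    rw [← hev, mul_eq_zero, mul_eq_zero, sub_eq_zero, sub_eq_zero, sub_eq_zero] at hu
    tauto
  have hroot : ∀ u, u = r₁ ∨ u = r₂ ∨ u = r₃ → u ^ 3 - t * u ^ 2 + s * u - 1 = 0 := fun u hu => by
    rw [← hev]; rcases hu with rfl | rfl | rfl <;> ring
  -- a repeated root
  have rep : ∀ (φ : K → K), Function.Injective φ → (∀ u v, φ (u * v) = φ u * φ v) → φ 1 = 1 →
      (∀ u, u = r₁ ∨ u = r₂ ∨ u = r₃ → φ u = r₁ ∨ φ u = r₂ ∨ φ u = r₃) → ∀ u v : K,
      (∀ w, (w = r₁ ∨ w = r₂ ∨ w = r₃) ↔ (w = u ∨ w = v)) → u * u * v = 1 → u ≠ v → φ u = u ∧ φ v = v := by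
    intro φ hinj hmul hone hcl u v hset hp huv
    have hu := (hset _).1 (hcl u ((hset u).2 (Or.inl rfl)))
    have hv := (hset _).1 (hcl v ((hset v).2 (Or.inr rfl)))
    rcases hu with hu | hu
    · exact ⟨hu, hv.resolve_left fun e => huv (hinj (hu.trans e.symm))⟩
    · have hv' : φ v = u := hv.resolve_right fun e => huv (hinj (hu.trans e.symm))
      have h1 := congrArg φ hp
      rw [hmul, hmul, hu, hv', hone] at h1
      refine absurd ?_ huv
      have hu0 : u ≠ 0 := by rintro rfl; simp at hp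
      have hv0 : v ≠ 0 := by rintro rfl; simp at hp
      have : u * v * u = u * v * v := by linear_combination hp - h1
      exact mul_left_cancel₀ (mul_ne_zero hu0 hv0) this
  obtain ⟨φ, hinj, hmul, hone, hcl, hfix, hcyc⟩ : ∃ φ : K → K, Function.Injective φ ∧
      (∀ u v, φ (u * v) = φ u * φ v) ∧ φ 1 = 1 ∧
      (∀ u, u = r₁ ∨ u = r₂ ∨ u = r₃ → φ u = r₁ ∨ φ u = r₂ ∨ φ u = r₃) ∧
      (∃ n ∈ maxSet a, ∃ m, n = 2 * m ∧ ∀ u, u ≠ 0 → φ u = u → u ^ m = 1) ∧
      (∃ n ∈ maxSet a, ∀ u, u ≠ 0 → u * φ u * φ (φ u) = 1 → u ^ n = 1) ∧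
      (∀ u, φ (φ u) = (u ^ q) ^ q) := by
    rcases hts with ⟨h1, h2'⟩ | ⟨h1, h2'⟩
    · refine ⟨σ, σ.injective, map_mul σ, map_one σ, fun u hu => hmem _ ?_,
        ⟨_, Or.inr (Or.inr (Or.inr (Or.inl (by rw [hqa])))), q - 1, rfl, fun u hu0 hu => ?_⟩,
        ⟨_, Or.inr (Or.inr (Or.inr (Or.inr (Or.inr (Or.inl rfl))))), fun u hu0 hu => ?_⟩, fun u => by rw [hσ, hσ]⟩
      · have := congrArg σ (hroot u hu)
        simp only [map_sub, map_add, map_mul, map_pow, map_one, map_zero] at this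
        rwa [hσ t, hσ s, h1, h2'] at this
      · refine pow_eq_one_of_mul (k := 1) ?_ hu0
        rw [Nat.sub_add_cancel hq1, pow_one, ← hσ]; exact hu
      · rw [hσ, hσ] at hu
        rw [hq2, hqa, ← hu, ← pow_mul]; ring
    · refine ⟨fun u => (σ u)⁻¹, fun u v e => σ.injective (inv_injective e),
        fun u v => by simp [mul_inv, mul_comm], by simp, fun u hu => hmem _ ?_,
        ⟨_, Or.inr (Or.inr (Or.inl (by rw [hqa]))), q + 1, rfl, fun u hu0 hu => ?_⟩,
        ⟨_, Or.inr (Or.inr (Or.inr (Or.inr (Or.inr (Or.inr rfl))))), fun u hu0 hu => ?_⟩, fun u => by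
          simp only [map_inv₀, inv_inv]; rw [hσ, hσ]⟩
      · have := congrArg σ (hroot u hu)
        simp only [map_sub, map_add, map_mul, map_pow, map_one, map_zero] at this
        rw [hσ t, hσ s, h1, h2'] at this
        have hu' : σ u ≠ 0 := by simpa using hne u hu
        have hw : σ u * (σ u)⁻¹ = 1 := mul_inv_cancel₀ hu'
        beta_reduce
        generalize (σ u)⁻¹ = w at hw ⊢
        linear_combination -(w ^ 3) * this +
          (((σ u * w) ^ 2 + σ u * w + 1) - s * w * (σ u * w + 1) + t * w ^ 2) * hw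
      · have hu' : (σ u)⁻¹ = u := hu
        rw [pow_succ, ← hσ]
        nth_rewrite 2 [← hu']
        exact mul_inv_cancel₀ (by simpa using hu0)
      · simp only [map_inv₀, inv_inv] at hu
        rw [hσ (σ u), hσ u] at hu
        rw [hq2, hqa]
        refine pow_eq_one_of_mul (k := q) ?_ hu0
        have hq' : q ≤ q * q := Nat.le_mul_self q
        rw [show q * q - q + 1 + q = q * q + 1 by omega]
        rw [mul_right_comm, ← div_eq_mul_inv, div_eq_iff (pow_ne_zero q hu0), one_mul, ← pow_mul] at hu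
        rw [pow_succ, mul_comm, hu]
  obtain ⟨n₂, hn₂, m, hm, hfix⟩ := hfix
  obtain ⟨⟨n₃, hn₃, hcyc⟩, hsq⟩ := hcyc
  -- repeated roots
  have two : ∀ u v : K, (∀ w, (w = r₁ ∨ w = r₂ ∨ w = r₃) ↔ (w = u ∨ w = v)) → u * u * v = 1 → u ≠ v →
      u ^ m = 1 ∧ v ^ m = 1 := fun u v hset hp huv => by
    obtain ⟨e1, e2⟩ := rep φ hinj hmul hone hcl u v hset hp huv
    exact ⟨hfix u (hne u ((hset u).2 (Or.inl rfl))) e1, hfix v (hne v ((hset v).2 (Or.inr rfl))) e2⟩
  by_cases h12 : r₁ = r₂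
  · by_cases h13 : r₁ = r₃
    · refine ⟨12, Or.inr (Or.inl rfl), (hpow 12 ?_)⟩
      rw [← h12, ← h13]
      exact cube_dvd r₁ (M := 3) (by rw [← h12, ← h13] at hprod; linear_combination hprod)
    · obtain ⟨e1, e2⟩ := two r₁ r₃ (fun w => by rw [← h12]; tauto) (by rw [← h12] at hprod; exact hprod) h13
      refine ⟨n₂, hn₂, (hpow n₂ ?_)⟩
      rw [hm, ← h12]; exact sq_dvd r₁ r₃ e1 e2 h13
  by_cases h13 : r₁ = r₃
  · obtain ⟨e1, e2⟩ := two r₁ r₂ (fun w => by rw [← h13]; tauto)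
      (by rw [← h13] at hprod; linear_combination hprod) h12
    refine ⟨n₂, hn₂, (hpow n₂ ?_)⟩
    rw [hm, ← h13, mul_right_comm]; exact sq_dvd r₁ r₂ e1 e2 h12
  by_cases h23 : r₂ = r₃
  · obtain ⟨e1, e2⟩ := two r₂ r₁ (fun w => by rw [← h23]; tauto)
      (by rw [← h23] at hprod; linear_combination hprod) (Ne.symm h12)
    refine ⟨n₂, hn₂, (hpow n₂ ?_)⟩
    rw [hm, ← h23, show (X - C r₁) * (X - C r₂) * (X - C r₂) = (X - C r₂) * (X - C r₂) * (X - C r₁) by ring]
    exact sq_dvd r₂ r₁ e1 e2 (Ne.symm h12)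
  -- distinct roots
  have c3 : ∀ u, (u = r₁ ∨ u = r₂ ∨ u = r₃) → u * φ u * φ (φ u) = 1 → u ^ n₃ = 1 :=
    fun u hu => hcyc u (hne u hu)
  rcases perm_three φ hinj h12 h13 h23 hcl with ⟨p1, p2, p3⟩ | ⟨p1, p2, p3⟩ | ⟨p1, p2, p3⟩
  · refine ⟨2 ^ (2 * a) - 1, Or.inr (Or.inr (Or.inr (Or.inr (Or.inl rfl)))),
      (hpow _ (prod_dvd r₁ r₂ r₃ ?_ h12 h13 h23))⟩
    intro u hu
    refine pow_eq_one_of_mul (k := 1) ?_ (hne u hu)
    rw [pow_one, Nat.sub_add_cancel Nat.one_le_two_pow, hq2, pow_mul, ← hsq]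
    rcases hu with rfl | rfl | rfl <;> assumption
  all_goals
    refine ⟨n₃, hn₃, (hpow _ (prod_dvd r₁ r₂ r₃ ?_ h12 h13 h23))⟩
    rintro u (rfl | rfl | rfl) <;> refine c3 _ (by tauto) ?_ <;> 
      simp only [p1, p2, p3] <;> linear_combination hprod

/-- The cubic of the square of an element exchanging the idempotents. -/
theorem swap_case (a : ℕ) {q : ℕ} (hqdef : q = 2 ^ a) (σ : K →+* K) (hσ : ∀ x, σ x = x ^ q)
    (k : ↥(Lie.G2 K)) {r₁ r₂ r₃ t : K} (hprod : r₁ * r₂ * r₃ = 1) (hsum : r₁ + r₂ + r₃ = t)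
    (hsum2 : r₁ * r₂ + r₁ * r₃ + r₂ * r₃ = t)
    (hpow : ∀ M : ℕ, (X - C r₁) * (X - C r₂) * (X - C r₃) ∣ X ^ M - 1 → (k * k) ^ M = 1)
    (htq : t ^ q = t) : ∃ n ∈ maxSet a, k ^ n = 1 := by
  have h2 : (2 : K) = 0 := CharTwo.two_eq_zero
  have hq1 : 1 ≤ q := hqdef ▸ Nat.one_le_two_pow
  have hqa : 2 ^ a = q := hqdef.symm
  have h1root : (r₁ - 1) * (r₂ - 1) * (r₃ - 1) = 0 := by
    linear_combination hprod + hsum - hsum2
  obtain ⟨b, hdvd, hb⟩ : ∃ b, ((X - C r₁) * (X - C r₂) * (X - C r₃) = (X - C 1) * (X - C b) * (X - C b⁻¹)) ∧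
      b + b⁻¹ + 1 = t := by
    rcases mul_eq_zero.1 h1root with h | h
    rcases mul_eq_zero.1 h with h | h
    · rw [sub_eq_zero] at h; subst h
      rw [one_mul] at hprod
      refine ⟨r₂, ?_, ?_⟩
      · rw [← eq_inv_of_mul_eq_one_right hprod]
      · rw [← eq_inv_of_mul_eq_one_right hprod]; linear_combination hsum
    · rw [sub_eq_zero] at h; subst h
      rw [mul_one] at hprod
      refine ⟨r₁, ?_, ?_⟩
      · rw [← eq_inv_of_mul_eq_one_right hprod]; ring
      · rw [← eq_inv_of_mul_eq_one_right hprod]; linear_combination hsum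
    · rw [sub_eq_zero] at h; subst h
      rw [mul_one] at hprod
      refine ⟨r₁, ?_, ?_⟩
      · rw [← eq_inv_of_mul_eq_one_right hprod]; ring
      · rw [← eq_inv_of_mul_eq_one_right hprod]; linear_combination hsum
  have fin : ∀ M, (X - C 1) * (X - C b) * (X - C b⁻¹) ∣ X ^ M - 1 → k ^ (2 * M) = 1 := fun M hM => by
    rw [pow_mul, pow_two]; exact hpow M (hdvd ▸ hM)
  by_cases hb1 : b = 1
  · subst hb1
    refine ⟨8, Or.inl rfl, fin 4 ?_⟩
    rw [inv_one]; exact cube_dvd 1 (M := 1) (one_pow 1)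
  have hb0 : b ≠ 0 := by
    rintro rfl
    have := congrArg (fun P : K[X] => P.eval 0) hdvd
    simp [hprod] at this
  have hq0 : q ≠ 0 := by omega
  have hbb : (b ^ q - b) * (b ^ q - b⁻¹) = 0 := by
    have := congrArg σ hb
    simp only [map_add, map_inv₀, map_one] at this
    rw [hσ b, hσ t, htq, ← hb] at this
    have hbq : b ^ q ≠ 0 := pow_ne_zero _ hb0
    field_simp at this ⊢
    linear_combination this
  have hne1 : b⁻¹ ≠ 1 := by simpa using hb1
  have hbi : b ≠ b⁻¹ := fun e => hb1 (by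
    have : b * b = 1 := by nth_rewrite 2 [e]; exact mul_inv_cancel₀ hb0
    exact CharTwo.add_eq_zero.1 (mul_self_eq_zero.1 (by linear_combination this + (b + 1) * h2)))
  rcases mul_eq_zero.1 hbb with hc | hc
  · refine ⟨2 * (q - 1), Or.inr (Or.inr (Or.inr (Or.inl (by rw [hqa])))), fin _ (prod_dvd 1 b b⁻¹ ?_ (Ne.symm hb1)
      (Ne.symm hne1) hbi)⟩
    have hbp : b ^ (q - 1) = 1 := pow_eq_one_of_mul (k := 1)
      (by rw [Nat.sub_add_cancel hq1, pow_one, ← sub_eq_zero, hc]) hb0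
    rintro u (rfl | rfl | rfl)
    · exact one_pow _
    · exact hbp
    · rw [inv_pow, hbp, inv_one]
  · refine ⟨2 * (q + 1), Or.inr (Or.inr (Or.inl (by rw [hqa]))), fin _ (prod_dvd 1 b b⁻¹ ?_ (Ne.symm hb1)
      (Ne.symm hne1) hbi)⟩
    have hbp : b ^ (q + 1) = 1 := by rw [pow_succ, sub_eq_zero.1 hc, inv_mul_cancel₀ hb0]
    rintro u (rfl | rfl | rfl)
    · exact one_pow _
    · exact hbp
    · rw [inv_pow, hbp, inv_one]

end cases

variable {F : Type*} [Field F] [Fintype F] [CharP F 2]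

set_option maxHeartbeats 1600000 in
/-- Every element order divides one of the seven numbers. -/
theorem orderOf_dvd (a : ℕ) (hq : Fintype.card F = 2 ^ a) (g : ↥(Lie.G2 F)) :
    ∃ n ∈ maxSet a, orderOf g ∣ n := by
  classical
  set q := 2 ^ a with hqdef
  have hq2 : 2 ^ (2 * a) = q * q := by rw [hqdef, two_mul, pow_add]
  have hq1 : 1 ≤ q := Nat.one_le_two_pow
  let K := AlgebraicClosure F
  let ι : F →+* K := algebraMap F K
  haveI : CharP K 2 := charP_of_injective_ringHom ι.injective 2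
  have h2 : (2 : K) = 0 := CharTwo.two_eq_zero
  let σ : K →+* K := iterateFrobenius K 2 a
  have hσ : ∀ x, σ x = x ^ q := fun x => iterateFrobenius_def 2 a x
  have hσι : ∀ x : F, σ (ι x) = ι x := fun x => by rw [hσ, ← map_pow, ← hq, FiniteField.pow_card]
  obtain ⟨e, het, hef⟩ := exists_flag g
  obtain ⟨z, hz⟩ :=
    IsAlgClosed.exists_root (X ^ 2 + X + C (ι (nrm e)) : K[X]) (by
      rw [show (X ^ 2 + X + C (ι (nrm e)) : K[X]) = C 1 * X ^ 2 + C 1 * X + C (ι (nrm e)) by simp,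
        degree_quadratic one_ne_zero]
      decide)
  simp only [IsRoot.def, eval_add, eval_pow, eval_X, eval_C] at hz
  set G := mapG2 ι g with hG
  set e' : Fin 8 → K := ι ∘ e + z • Covering.G2.one with he'
  have he't : e' 0 + e' 7 = 1 := by
    have := congrArg ι het
    simp only [map_add, map_one] at this
    simp only [he', Pi.add_apply, Pi.smul_apply, Function.comp_apply, smul_eq_mul]
    simp [Covering.G2.one]
    linear_combination this + z * h2
  have he'n : nrm e' = 0 := by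
    have hn : nrm (ι ∘ e) = ι (nrm e) := by simp [nrm]
    rw [he', nrm_add_one, hn]
    have := congrArg ι het
    simp only [map_add, map_one] at this
    simp only [Function.comp_apply]
    linear_combination hz + z * this
  have hGf : mat G *ᵥ e' = e' ∨ mat G *ᵥ e' = e' + Covering.G2.one := by
    have hι : ι ∘ (Covering.G2.one : Fin 8 → F) = Covering.G2.one := by
      funext i; fin_cases i <;> simp [Covering.G2.one]
    rw [he', mulVec_add, mulVec_smul, map_one', hG, mat_mapG2, comp_mulVec]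
    rcases hef with h | h <;> rw [h]
    · exact Or.inl rfl
    · refine Or.inr ?_
      rw [show ι ∘ (e + Covering.G2.one) = ι ∘ e + ι ∘ Covering.G2.one from funext fun i => map_add ι _ _, hι]
      abel
  obtain ⟨x, hx⟩ : ∃ x : ↥(Lie.G2 K), mat x *ᵥ e' = idE := by
    rcases orb_idem e' he't he'n with ⟨x, hx⟩ | ⟨x, hx⟩
    · exact ⟨x, hx⟩
    · refine ⟨Covering.G2.swap * x, ?_⟩
      rw [mat_mul, ← mulVec_mulVec, hx, Covering.G2.swap, mk_mulVec]
      funext i; fin_cases i <;> simp [swapMap, idE]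
  set h := x * G * x⁻¹ with hh
  have hxi : mat x⁻¹ *ᵥ idE = e' := by rw [← hx, mat_inv_mulVec]
  -- Galois twist
  set y := mapG2 σ x * x⁻¹ with hy
  have hσG : mapG2 σ G = G := by
    refine Subtype.ext (Units.ext ?_)
    show mat (mapG2 σ G) = mat G
    rw [mat_mapG2, hG, mat_mapG2, Matrix.map_map]
    exact Matrix.ext fun i j => hσι _
  have hσh : mapG2 σ h = y * h * y⁻¹ := by
    rw [hh, map_mul, map_mul, hσG, map_inv, hy]; group
  have hσE : σ ∘ (idE : Fin 8 → K) = idE := by funext i; fin_cases i <;> simp [idE]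
  have hσx : mat (mapG2 σ x) *ᵥ (σ ∘ e') = idE := by rw [mat_mapG2, comp_mulVec, hx, hσE]
  have hσe : σ ∘ e' = e' ∨ σ ∘ e' = e' + Covering.G2.one := by
    have hz' : z ^ q * z ^ q + z ^ q = z * z + z := by
      have := congrArg σ hz
      simp only [map_add, map_pow, map_zero, hσι] at this
      rw [hσ z] at this
      linear_combination this - hz
    have key : σ ∘ e' = ι ∘ e + (z ^ q) • Covering.G2.one := by
      funext i
      simp only [he', Function.comp_apply, Pi.add_apply, Pi.smul_apply, smul_eq_mul, map_add, map_mul, hσι,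
        hσ z]
      fin_cases i <;> simp [Covering.G2.one]
    rcases mul_eq_zero.1 (show (z ^ q + z) * (z ^ q + z + 1) = 0 by
      linear_combination hz' + (z ^ q * z + z * z + z) * h2) with hw | hw
    · left; rw [key, he', CharTwo.add_eq_zero.1 hw]
    · right
      rw [key, he', show z ^ q = z + 1 from CharTwo.add_eq_zero.1 (by linear_combination hw), add_smul, one_smul]
      abel
  have hyE : mat y *ᵥ idE = idE ∨ mat y *ᵥ idE = idE' := by
    rw [hy, mat_mul, ← mulVec_mulVec, hxi]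
    rcases hσe with hw | hw
    · left; rwa [hw] at hσx
    · right
      rw [hw, mulVec_add, map_one'] at hσx
      rw [← idE_add_one, ← hσx, add_assoc]
      funext i; simp [CharTwo.add_self_eq_zero]
  have hhE : mat h *ᵥ idE = idE ∨ mat h *ᵥ idE = idE' := by
    rw [hh, mat_mul, mat_mul, ← mulVec_mulVec, ← mulVec_mulVec, hxi]
    rcases hGf with hw | hw <;> rw [hw]
    · exact Or.inl hx
    · right; rw [mulVec_add, hx, map_one', idE_add_one]
  -- facts about a stabiliser element of the form `h` or `h * h`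
  have core : ∀ k : ↥(Lie.G2 K), mat k *ᵥ idE = idE → mapG2 σ k = y * k * y⁻¹ →
      ∃ r₁ r₂ r₃ : K, r₁ * r₂ * r₃ = 1 ∧ r₁ + r₂ + r₃ = (blockA k).trace ∧
        r₁ * r₂ + r₁ * r₃ + r₂ * r₃ = (blockA k).adjugate.trace ∧
        (∀ M : ℕ, (X - C r₁) * (X - C r₂) * (X - C r₃) ∣ X ^ M - 1 → k ^ M = 1) ∧
        ((((blockA k).trace ^ q = (blockA k).trace) ∧ (blockA k).adjugate.trace ^ q = (blockA k).adjugate.trace) ∨
         (((blockA k).trace ^ q = (blockA k).adjugate.trace) ∧ (blockA k).adjugate.trace ^ q = (blockA k).trace)) := by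
    intro k hk hσk
    set t := (blockA k).trace with ht
    set s := (blockA k).adjugate.trace with hs
    obtain ⟨r₁, hr1⟩ := IsAlgClosed.exists_root (X ^ 3 - C t * X ^ 2 + C s * X - 1 : K[X]) (by
      rw [show (X ^ 3 - C t * X ^ 2 + C s * X - 1 : K[X]) = C 1 * X ^ 3 + C (-t) * X ^ 2 + C s * X + C (-1) by
        simp; ring, degree_cubic one_ne_zero]
      decide)
    simp only [IsRoot.def, eval_add, eval_sub, eval_mul, eval_pow, eval_X, eval_C, eval_one] at hr1
    obtain ⟨r₂, hr2⟩ := IsAlgClosed.exists_root (X ^ 2 + C (r₁ - t) * X + C (s + r₁ * (r₁ - t)) : K[X]) (by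
      rw [show (X ^ 2 + C (r₁ - t) * X + C (s + r₁ * (r₁ - t)) : K[X]) =
        C 1 * X ^ 2 + C (r₁ - t) * X + C (s + r₁ * (r₁ - t)) by simp, degree_quadratic one_ne_zero]
      decide)
    simp only [IsRoot.def, eval_add, eval_mul, eval_pow, eval_X, eval_C] at hr2
    refine ⟨r₁, r₂, t - r₁ - r₂, by linear_combination hr1 - r₁ * hr2, by ring, by linear_combination -hr2,
      fun M hM => ?_, ?_⟩
    · refine eq_one_of_blockA (fix_pow hk M) ?_
      obtain ⟨w, hw⟩ := hM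
      have hv := congrArg (aeval (blockA k)) hw
      rw [map_mul, aeval_cubic_eq_zero _ (det_blockA hk) (by ring) (by rw [← hs]; linear_combination -hr2)
        (by linear_combination hr1 - r₁ * hr2), zero_mul, map_sub, map_pow, aeval_X, map_one, sub_eq_zero] at hv
      rw [blockA_pow hk, hv]
    · have hP : ∀ P : Matrix (Fin 8) (Fin 8) K, P.map σ = P →
          σ ((P * mat k).trace) = (P * (mat y * mat k * mat y⁻¹)).trace := by
        intro P hP
        rw [← mat_mul, ← mat_mul, ← hσk, mat_mapG2, show σ ((P * mat k).trace) = ((P * mat k).map σ).trace from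
          map_sum σ (fun i => (P * mat k) i i) Finset.univ]
        congr 1
        show (P * mat k).map σ = _
        rw [Matrix.map_mul, hP]
      have hm1 : (proj1 : Matrix (Fin 8) (Fin 8) K).map σ = proj1 := by
        rw [proj1, diagonal_map (map_zero σ)]; congr 1; funext i; fin_cases i <;> simp
      have hm2 : (proj2 : Matrix (Fin 8) (Fin 8) K).map σ = proj2 := by
        rw [proj2, diagonal_map (map_zero σ)]; congr 1; funext i; fin_cases i <;> simp
      have hyy : mat y⁻¹ * mat y = 1 := by rw [← mat_mul, inv_mul_cancel]; rfl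
      have hcyc : ∀ P Q : Matrix (Fin 8) (Fin 8) K, P * mat y = mat y * Q →
          (P * (mat y * mat k * mat y⁻¹)).trace = (Q * mat k).trace := by
        intro P Q hPQ
        rw [← mul_assoc, ← mul_assoc, hPQ, trace_mul_comm, ← mul_assoc, ← mul_assoc, hyy, one_mul]
      rw [ht, hs, ← hσ, ← hσ, ← trace_proj1, ← trace_proj2 hk, hP _ hm1, hP _ hm2]
      rcases hyE with hw | hw
      · obtain ⟨c1, c2⟩ := commute_proj hw
        exact Or.inl ⟨hcyc _ _ c1.symm, hcyc _ _ c2.symm⟩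
      · obtain ⟨c1, c2⟩ := swap_proj hw
        exact Or.inr ⟨hcyc _ _ c2.symm, hcyc _ _ c1.symm⟩
  have hord : orderOf g = orderOf h := by
    have hconj : h = MulAut.conj x G := by rw [hh, MulAut.conj_apply]
    rw [hconj]
    exact ((orderOf_injective (MulAut.conj x).toMonoidHom (MulAut.conj x).injective G).trans
      (orderOf_injective _ (mapG2_injective ι) g)).symm
  rw [hord]
  rcases hhE with hE | hE
  · obtain ⟨r₁, r₂, r₃, hprod, hsum, hsum2, hpow, hts⟩ := core h hE hσh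
    obtain ⟨n, hn, hn1⟩ := fixed_case a hqdef σ hσ h hprod hsum hsum2 hpow hts
    exact ⟨n, hn, orderOf_dvd_of_pow_eq_one hn1⟩
  · -- the element exchanges `E` and `1 - E`
    have hEE : mat (h * h) *ᵥ idE = idE := by
      rw [mat_mul, ← mulVec_mulVec, hE]
      have e : (idE' : Fin 8 → K) = idE + Covering.G2.one := idE_add_one.symm
      rw [e, mulVec_add, map_one', hE, idE'_add_one]
    obtain ⟨r₁, r₂, r₃, hprod, hsum, hsum2, hpow, hts⟩ := core (h * h) hEE (by rw [map_mul, hσh]; group)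
    have hts' : (blockA (h * h)).trace = (blockA (h * h)).adjugate.trace := by
      rw [← trace_proj1, ← trace_proj2 hEE, mat_mul, ← mul_assoc, trace_mul_comm, ← mul_assoc,
        (swap_proj hE).1, mul_assoc]
    obtain ⟨t, ht⟩ : ∃ t, t = (blockA (h * h)).trace := ⟨_, rfl⟩
    rw [← hts', ← ht] at hts hsum2
    rw [← ht] at hsum
    have htq : t ^ q = t := by rcases hts with ⟨h1, -⟩ | ⟨h1, -⟩ <;> exact h1
    obtain ⟨n, hn, hn1⟩ := swap_case a hqdef σ hσ h hprod hsum hsum2 hpow htq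
    exact ⟨n, hn, orderOf_dvd_of_pow_eq_one hn1⟩

end Cfsg.Agent.H62.G2Orders
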